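import Mathlib
import Cfsg.Agent.H364.SpAll

/-!
# No simple group of Lie type in cross characteristic, rank 8 (helper360)
-/

set_option autoImplicit false

namespace Cfsg.Agent.H360.C8.Cross

open Finset Cfsg.Agent.H902.Lte Cfsg.Agent.H902.Art Cfsg.Agent.H364.SpVal Cfsg.Agent.H364.SpIneq Cfsg.Agent.H364.SpPrim
  Cfsg.Agent.H364.SpTot Cfsg.Agent.H364.SpCross Cfsg.Agent.H364.SpSmall Cfsg.Agent.H364.SpEnum Cfsg.Agent.H364.SpSix
  Cfsg.Agent.H364.SpFin Cfsg.Agent.H364.SpLarge Cfsg.Agent.H364.SpAll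

/-- the two numerical inequalities -/
theorem ineq8 {q : ℕ} (hq : 6 ≤ q) :
    lam 8 ^ 3 * 4 ^ (5 * 8) * 8 ^ 3 * (q + 1) ^ (5 * 8 + 3) < ((q ^ 2 - 1) ^ ss 8) ^ 3 * (q ^ cn 8) ^ 3 ∧
    lam 8 ^ 3 * 8 ^ 3 * (q + 1) ^ (8 * 8 + 3) < ((q ^ 2 - 1) ^ ss 8) ^ 3 * (q ^ cn 8) ^ 3 := by
  constructor
  · refine mono (q0 := 6) (by norm_num) hq ?_ ?_
    · decide +kernel
    · decide +kernel
  · refine mono (q0 := 6) (by norm_num) hq ?_ ?_
    · decide +kernel
    · decide +kernel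

theorem add_one_le {q : ℕ} : ∀ e : ℕ, 1 ≤ e → q ^ e + 1 ≤ (q + 1) ^ e := by
  intro e he
  induction e, he using Nat.le_induction with
  | base => simp
  | succ k hk ih =>
    rcases Nat.eq_zero_or_pos q with h | h
    · subst h; simp
    · rw [pow_succ, pow_succ]
      have h6 : 1 ≤ q ^ k := Nat.one_le_pow _ _ h
      nlinarith

/-- **Rank `8`, the general case.** -/
theorem large {p f M : ℕ} {X : Sh} {v g MS I : ℕ} (hc : Cr 8 p f M X v g MS I) (hq : 6 ≤ p ^ f) : False := by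
  have hY := hc.hY
  have hX := hc.hX
  have hX2 := hc.hX2
  have hI := hc.hI
  have hI0 := hc.hI0
  have hd := hc.hd.gen hY.q_ge (by norm_num)
  have hv := hX.hp
  have hq2 := hY.q_ge
  have hvq := hY.not_dvd_q hv hc.hvp
  obtain ⟨i1, i2⟩ := ineq8 hq
  set q := p ^ f with hqdef
  have hQ : 2 ≤ q ^ 2 := by nlinarith
  have h1 := pow_le_P hX hY hc.hMS
  have h2 : P v M ≤ P v (AA 8 q) := hY.P_other_le hv hc.hvp
  have hlb := tt_ge (n := 8) hQ
  have hlam := lam_pos 8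
  set N := g * NN X with hN
  have fin : ∀ B : ℕ, (q ^ cn 8 * tt 8 (q ^ 2)) ^ 3 ≤ B →
      lam 8 ^ 3 * B < ((q ^ 2 - 1) ^ ss 8) ^ 3 * (q ^ cn 8) ^ 3 → False := by
    intro B hB h3
    have h4 : ((q ^ 2 - 1) ^ ss 8) ^ 3 * (q ^ cn 8) ^ 3 ≤ lam 8 ^ 3 * (q ^ cn 8 * tt 8 (q ^ 2)) ^ 3 := by
      calc ((q ^ 2 - 1) ^ ss 8) ^ 3 * (q ^ cn 8) ^ 3 ≤ (tt 8 (q ^ 2) * lam 8) ^ 3 * (q ^ cn 8) ^ 3 :=
            Nat.mul_le_mul_right _ (Nat.pow_le_pow_left hlb 3)
        _ = _ := by simp only [mul_pow]; ring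
    have h5 := Nat.mul_le_mul_left (lam 8 ^ 3) hB
    omega
  have hNle : N ≤ 8 * (q + 1) :=
    exp_le hv.two_le (Or.inl (by omega)) ((h1.trans h2).trans (P_le_gen hv hq2 hvq (by norm_num)))
  by_cases hvt : v ∣ tt 8 (q ^ 2)
  · obtain ⟨ho1, ho2⟩ := order_of_dvd_tt (by norm_num) hQ hv hvt
    have hv2 : v ≠ 2 := by
      intro h
      rw [h] at ho1 hvq
      have := order_two_le hvq
      omega
    have h3 := P_le_of_order hv hv2 hq2 hvq ho1
    have h4 : v ^ N ≤ (q + 1) ^ 8 := by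
      have h5 : q ^ orderOf ((q ^ 2 : ℕ) : ZMod v) + 1 ≤ q ^ 8 + 1 := by
        have := Nat.pow_le_pow_right (show 0 < q by omega) ho2
        omega
      exact (h1.trans h2).trans (h3.trans (h5.trans (add_one_le 8 (by norm_num))))
    apply fin _ (cube_all hX hX2 hI hI0 hd)
    refine lt_of_le_of_lt ?_ i2
    calc lam 8 ^ 3 * ((v ^ N) ^ 8 * N ^ 3) ≤ lam 8 ^ 3 * (((q + 1) ^ 8) ^ 8 * (8 * (q + 1)) ^ 3) := by
          apply Nat.mul_le_mul_left
          exact Nat.mul_le_mul (Nat.pow_le_pow_left h4 8) (Nat.pow_le_pow_left hNle 3)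
      _ = _ := by
          rw [← pow_mul, mul_pow 8, pow_add]
          ring
  · have hcop : Nat.Coprime (q ^ cn 8 * tt 8 (q ^ 2)) v := by
      apply Nat.Coprime.mul_left
      · apply Nat.Coprime.pow_left
        exact (Nat.Coprime.symm ((Nat.Prime.coprime_iff_not_dvd hv).2 hvq))
      · exact (Nat.Coprime.symm ((Nat.Prime.coprime_iff_not_dvd hv).2 hvt))
    have h4 : v ^ N ≤ (4 * (q + 1)) ^ 8 := (h1.trans h2).trans (P_le_gen hv hq2 hvq (by norm_num))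
    apply fin _ (cube_num hX hX2 hI hI0 hcop hd)
    refine lt_of_le_of_lt ?_ i1
    calc lam 8 ^ 3 * ((v ^ N) ^ 5 * N ^ 3) ≤ lam 8 ^ 3 * (((4 * (q + 1)) ^ 8) ^ 5 * (8 * (q + 1)) ^ 3) := by
          apply Nat.mul_le_mul_left
          exact Nat.mul_le_mul (Nat.pow_le_pow_left h4 5) (Nat.pow_le_pow_left hNle 3)
      _ = _ := by
          rw [← pow_mul, mul_pow 8, mul_pow 4, pow_add]
          ring

/-- the small cases -/
def l8 : List (ℕ × ℕ × ℕ) := [(2, 1, 0), (3, 0, 30), (4, 0, 0), (5, 0, 30)]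

theorem l8_all : ∀ q ∈ List.range 6, q < 2 ∨ q ∈ l8.map (fun a => a.1) := by
  decide +kernel

theorem l8_fl : ∀ a ∈ l8, fl 8 a.1 (a.1 ^ 8 + 1) a.2.1 = true ∧ (a.1 % 2 = 0 ∨ tw 8 a.1 a.2.2 = true) ∧
    (a.2.1 = 0 ∨ (a.2.1 = 1 ∧ a.1 = 2)) := by
  decide +kernel

theorem en_eight : en 8 2 (2 ^ cn 8 * te 8 2) 3 10 = true := by
  decide +kernel

variable {p f M : ℕ} {X : Sh} {v g MS I : ℕ}

theorem small (hc : Cr 8 p f M X v g MS I) (hq : p ^ f < 6) : False := by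
  have hp := hc.hY.hp
  have hq2 := hc.hY.q_ge
  rcases l8_all _ (List.mem_range.2 hq) with h | h
  · omega
  · obtain ⟨⟨q, s, a⟩, ha, haq⟩ := List.mem_map.1 h
    have haq' : p ^ f = q := haq.symm
    obtain ⟨h1, h2, h4⟩ := l8_fl _ ha
    simp only at h1 h2 h4
    refine cross_fl (b := q ^ 8 + 1) (s := s) hc haq' (by norm_num) (te_bound hc haq' (by norm_num) (good_of_fl h1)) h1 ?_ ?_
    · intro e he hes w hw hw2 hwd
      rcases h4 with h4 | ⟨h4, h5⟩
      · omega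
      · have h6' : e = 1 := by omega
        subst h6'
        subst h5
        have h8 := dvd_three hw (by simpa using hwd)
        rw [h8]
        exact ⟨10, en_eight⟩
    · intro hp2
      rcases h2 with h2 | h2
      · exact absurd (even_of hp haq' h2) hp2
      · exact Or.inr ⟨a, h2⟩

/-- **No simple group of Lie type in cross characteristic, rank `8`.** -/
theorem cross_eight (hc : Cr 8 p f M X v g MS I) : False := by
  rcases Nat.lt_or_ge (p ^ f) 6 with h | h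
  · exact small hc h
  · exact large hc h

end Cfsg.Agent.H360.C8.Cross
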